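import Mathlib

/-!
Basic notions for S4162 (solvable groups with distinct class sizes): rational groups,
`cent x` = order of the centralizer.
-/

set_option autoImplicit false

namespace Cfsg.Agent.AH

open Subgroup

/-- A rational group: every element is conjugate to its powers generating the same cyclic group. -/
def IsRat (G : Type*) [Group G] : Prop :=
  ∀ (x : G) (j : ℕ), j.Coprime (orderOf x) → IsConj x (x ^ j)

/-- Distinct conjugacy classes have distinct sizes. -/
def IsAH (G : Type*) [Group G] : Prop :=
  Function.Injective fun C : ConjClasses G => Nat.card C.carrier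

/-- The order of the centralizer. -/
noncomputable def cent {G : Type*} [Group G] (x : G) : ℕ :=
  Nat.card (Subgroup.centralizer ({x} : Set G))

variable {G : Type*} [Group G]

theorem ncard_class_mul_cent (x : G) :
    Nat.card (ConjClasses.mk x).carrier * cent x = Nat.card G := by
  classical
  have h1 : (ConjClasses.mk x).carrier = MulAction.orbit (ConjAct G) x := by
    rw [ConjAct.orbit_eq_carrier_conjClasses]
  have h2 := MulAction.index_stabilizer (ConjAct G) x
  have h4 : (MulAction.stabilizer (ConjAct G) x).index =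
      (Subgroup.centralizer ({x} : Set G)).index := by
    rw [Subgroup.centralizer_eq_comap_stabilizer]
    exact (Subgroup.index_comap_of_surjective _ (ConjAct.toConjAct (G := G)).surjective).symm
  have h5 := (Subgroup.centralizer ({x} : Set G)).index_mul_card
  rw [← h4, h2] at h5
  rw [h1]
  exact h5

theorem cent_conj_eq {x y : G} (h : IsConj x y) : cent x = cent y := by
  obtain ⟨c, rfl⟩ := isConj_iff.mp h
  unfold cent
  refine Nat.card_congr ⟨fun z => ⟨c * z * c⁻¹, ?_⟩, fun z => ⟨c⁻¹ * z * c, ?_⟩, ?_, ?_⟩
  · have := z.2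
    rw [Subgroup.mem_centralizer_singleton_iff] at this ⊢
    calc c * z * c⁻¹ * (c * x * c⁻¹) = c * (z * x) * c⁻¹ := by group
      _ = c * (x * z) * c⁻¹ := by rw [this]
      _ = _ := by group
  · have := z.2
    rw [Subgroup.mem_centralizer_singleton_iff] at this ⊢
    calc c⁻¹ * z * c * x = c⁻¹ * (z * (c * x * c⁻¹)) * c := by group
      _ = c⁻¹ * ((c * x * c⁻¹) * z) * c := by rw [this]
      _ = _ := by group
  · intro z; ext; simp [mul_assoc]
  · intro z; ext; simp [mul_assoc]

variable [Finite G]

theorem cent_pos (x : G) : 0 < cent x := Nat.card_pos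

omit [Finite G] in
theorem cent_dvd (x : G) : cent x ∣ Nat.card G := Subgroup.card_subgroup_dvd_card _

theorem isConj_of_cent_eq (h : IsAH G) {x y : G} (hxy : cent x = cent y) : IsConj x y := by
  have h1 := ncard_class_mul_cent x
  have h2 := ncard_class_mul_cent y
  rw [← hxy, ← h1] at h2
  have h3 := Nat.eq_of_mul_eq_mul_right (cent_pos x) h2
  exact (ConjClasses.mk_eq_mk_iff_isConj.mp (h h3)).symm

omit [Finite G] in
theorem centralizer_pow_eq (x : G) (j : ℕ) (hj : j.Coprime (orderOf x)) :
    Subgroup.centralizer ({x ^ j} : Set G) = Subgroup.centralizer ({x} : Set G) := by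
  apply le_antisymm
  · intro z hz
    rw [Subgroup.mem_centralizer_singleton_iff] at hz ⊢
    obtain ⟨m, hm⟩ := exists_pow_eq_self_of_coprime hj
    have : Commute z ((x ^ j) ^ m) := Commute.pow_right hz m
    rw [hm] at this
    exact this
  · intro z hz
    rw [Subgroup.mem_centralizer_singleton_iff] at hz ⊢
    exact Commute.pow_right hz j

theorem IsAH.isRat (h : IsAH G) : IsRat G := by
  intro x j hj
  apply isConj_of_cent_eq h
  unfold cent
  rw [centralizer_pow_eq x j hj]

omit [Finite G] in
/-- Any surjective image of a rational finite group is rational. -/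
theorem IsRat.of_surjective {H : Type*} [Group H] [Finite G] (h : IsRat G) (f : G →* H)
    (hf : Function.Surjective f) : IsRat H := by
  intro y j hj
  obtain ⟨x, rfl⟩ := hf y
  -- choose j' ≡ j mod orderOf (f x), coprime to orderOf x
  have hd : orderOf (f x) ∣ orderOf x := orderOf_map_dvd f x
  have hpos : 0 < orderOf x := orderOf_pos x
  have : NeZero (orderOf x) := ⟨hpos.ne'⟩
  obtain ⟨u, hu⟩ := ZMod.unitsMap_surjective hd (ZMod.unitOfCoprime j hj)
  have hu' : ((u : ZMod (orderOf x)).val : ZMod (orderOf (f x))) = (j : ZMod (orderOf (f x))) := by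
    have h1 := congrArg (fun v : (ZMod (orderOf (f x)))ˣ => (v : ZMod (orderOf (f x)))) hu
    simp only [ZMod.unitsMap_def, Units.coe_map, ZMod.coe_unitOfCoprime] at h1
    rw [← h1]
    rw [ZMod.natCast_val]
    rfl
  have hc : Nat.Coprime (u : ZMod (orderOf x)).val (orderOf x) := ZMod.val_coe_unit_coprime u
  have h2 := (h x _ hc)
  have h3 : IsConj (f x) (f (x ^ (u : ZMod (orderOf x)).val)) := f.map_isConj h2
  rw [map_pow] at h3
  have h4 : f x ^ (u : ZMod (orderOf x)).val = f x ^ j := by
    rw [pow_eq_pow_iff_modEq]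
    exact (ZMod.natCast_eq_natCast_iff _ _ _).mp hu'
  rwa [h4] at h3

theorem IsRat.quotient (h : IsRat G) (N : Subgroup G) [N.Normal] : IsRat (G ⧸ N) :=
  h.of_surjective (QuotientGroup.mk' N) (QuotientGroup.mk'_surjective N)

theorem IsRat.of_equiv {H : Type*} [Group H] (h : IsRat G) (e : G ≃* H) : IsRat H :=
  h.of_surjective e.toMonoidHom e.surjective

theorem IsRat.inv (h : IsRat G) (x : G) : IsConj x x⁻¹ := by
  have h1 : (orderOf x - 1).Coprime (orderOf x) ∨ orderOf x = 1 := by
    have := orderOf_pos x
    rcases Nat.lt_or_ge 1 (orderOf x) with h | h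
    · left
      have h2 : (orderOf x - 1) + 1 = orderOf x := by omega
      rw [← h2]
      simp
    · right; omega
  rcases h1 with h1 | h1
  · have h2 := h x _ h1
    have h3 : x ^ (orderOf x - 1) = x⁻¹ := by
      have := orderOf_pos x
      rw [eq_inv_iff_mul_eq_one, ← pow_succ, Nat.sub_add_cancel this, pow_orderOf_eq_one]
    rwa [h3] at h2
  · rw [orderOf_eq_one_iff] at h1
    subst h1
    simp

end Cfsg.Agent.AH
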