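import Mathlib
import Cfsg.Agent.H535.AHSmooth

/-!
Regular linear groups with rational traces over `ZMod p`, `p ≥ 5` (for S4162):
only `p = 5`, dimension two and order 24 is possible.
-/

set_option autoImplicit false

namespace Cfsg.Agent.AH

open Subgroup

/-! ### Group theoretic preliminaries -/

theorem exists_notMem_finset {Q : Type*} [Finite Q] (s : Finset Q) (h : s.card < Nat.card Q) :
    ∃ x, x ∉ s := by
  classical
  have hfin : Fintype Q := Fintype.ofFinite Q
  by_contra hcon
  push Not at hcon
  have : s = Finset.univ := Finset.eq_univ_iff_forall.mpr hcon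
  rw [this, Finset.card_univ, Nat.card_eq_fintype_card] at h
  omega

/-- A group of order 16 of exponent dividing 4 has more than one involution. -/
theorem no_sixteen {Q : Type*} [Group Q] [Finite Q] (hQ : Nat.card Q = 16) (z : Q)
    (hz1 : z ≠ 1) (hz2 : z * z = 1)
    (hu : ∀ x : Q, x * x = 1 → x = 1 ∨ x = z) (h4 : ∀ x : Q, x ^ 4 = 1) : False := by
  classical
  have hsq : ∀ x : Q, x ≠ 1 → x ≠ z → x * x = z := by
    intro x h1 h2
    have h3 : (x * x) * (x * x) = 1 := by
      rw [← h4 x]; simp only [pow_succ, pow_zero, one_mul, mul_assoc]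
    rcases hu _ h3 with h | h
    · rcases hu x h with h | h
      · exact absurd h h1
      · exact absurd h h2
    · exact h
  have hzc : ∀ x : Q, z * x = x * z := by
    intro x
    by_cases h1 : x = 1
    · simp [h1]
    by_cases h2 : x = z
    · rw [h2]
    · rw [← hsq x h1 h2, mul_assoc]
  have hinv : ∀ x : Q, x ≠ 1 → x ≠ z → x⁻¹ = x * z := by
    intro x h1 h2
    rw [inv_eq_iff_mul_eq_one, ← mul_assoc, hsq x h1 h2, hz2]
  have hac : ∀ a b : Q, a ≠ 1 → a ≠ z → b ≠ 1 → b ≠ z → b ≠ a → b ≠ a * z →
      a * b = b * a * z ∧ a * b ≠ 1 ∧ a * b ≠ z := by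
    intro a b a1 a2 b1 b2 hba hbaz
    have n1 : a * b ≠ 1 := by
      intro h
      have : b = a⁻¹ := (inv_eq_of_mul_eq_one_right h).symm
      rw [hinv a a1 a2] at this
      exact hbaz this
    have n2 : a * b ≠ z := by
      intro h
      have : b = a⁻¹ * z := by rw [← h]; group
      rw [hinv a a1 a2, mul_assoc, hz2, mul_one] at this
      exact hba this
    refine ⟨?_, n1, n2⟩
    have h1 := hsq _ n1 n2
    have h2 : b * a = a⁻¹ * z * b⁻¹ := by rw [← h1]; group
    rw [hinv a a1 a2, hinv b b1 b2] at h2
    rw [h2]
    calc a * b = a * (z * z) * b * (z * z) := by rw [hz2]; group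
      _ = a * z * z * (b * z) * z := by group
  obtain ⟨a, ha⟩ := exists_notMem_finset ({1, z} : Finset Q)
    (lt_of_le_of_lt Finset.card_le_two (by omega))
  obtain ⟨b, hb⟩ := exists_notMem_finset ({1, z, a, a * z} : Finset Q)
    (lt_of_le_of_lt Finset.card_le_four (by omega))
  have hcard : ({1, z, a, a * z, b, b * z, a * b, a * b * z} : Finset Q).card ≤ 8 := by
    refine (Finset.card_insert_le _ _).trans ?_
    refine (Nat.add_le_add_right (Finset.card_insert_le _ _) 1).trans ?_
    have : ({a, a * z, b, b * z, a * b, a * b * z} : Finset Q).card ≤ 6 := Finset.card_le_six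
    omega
  obtain ⟨c, hc⟩ := exists_notMem_finset ({1, z, a, a * z, b, b * z, a * b, a * b * z} : Finset Q)
    (lt_of_le_of_lt hcard (by omega))
  simp only [Finset.mem_insert, Finset.mem_singleton, not_or] at ha hb hc
  obtain ⟨c1, c2, c3, c4, c5, c6, c7, c8⟩ := hc
  obtain ⟨b1, b2, b3, b4⟩ := hb
  obtain ⟨a1, a2⟩ := ha
  obtain ⟨e1, n1, n2⟩ := hac a b a1 a2 b1 b2 b3 b4
  obtain ⟨e2, -, -⟩ := hac a c a1 a2 c1 c2 c3 c4
  obtain ⟨e3, -, -⟩ := hac b c b1 b2 c1 c2 c5 c6
  obtain ⟨e4, -, -⟩ := hac (a * b) c n1 n2 c1 c2 c7 c8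
  have e5 : a * b * c = c * (a * b) := by
    calc a * b * c = a * (b * c) := by group
      _ = (a * c) * (b * z) := by rw [e3]; group
      _ = c * a * (z * b) * z := by rw [e2]; group
      _ = c * a * b * (z * z) := by rw [hzc b]; group
      _ = c * (a * b) := by rw [hz2]; group
  rw [e5] at e4
  exact hz1 (mul_eq_left.mp e4.symm)

/-- In a group of order 24 with a unique involution and without elements of order 12
the Sylow 3-subgroups are in the centre of their normalizers. -/
theorem normalizer_le_centralizer_of_24 {M : Type*} [Group M] [Finite M]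
    (hM : Nat.card M = 24) (z : M) (hz1 : z ≠ 1) (hz2 : z * z = 1)
    (hu : ∀ x : M, x * x = 1 → x = 1 ∨ x = z) (h12 : ∀ x : M, orderOf x ≠ 12)
    (R : Sylow 3 M) :
    normalizer (R : Set M) ≤ centralizer (R : Set M) := by
  have hR : Nat.card R = 3 := by
    rw [R.card_eq_multiplicity, hM]
    have : (24 : ℕ) = 3 ^ 1 * 8 := by norm_num
    rw [this, Nat.factorization_mul (by norm_num) (by norm_num),
      Nat.Prime.factorization_pow Nat.prime_three]
    have h8 : (8 : ℕ) = 2 ^ 3 := by norm_num
    rw [h8, Nat.Prime.factorization_pow Nat.prime_two]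
    simp
  have hcyc : IsCyclic R := isCyclic_of_prime_card hR
  have hzc : ∀ x : M, z * x = x * z := by
    intro x
    have h1 : (x * z * x⁻¹) * (x * z * x⁻¹) = 1 := by
      calc (x * z * x⁻¹) * (x * z * x⁻¹) = x * (z * z) * x⁻¹ := by group
        _ = 1 := by rw [hz2]; group
    rcases hu _ h1 with h | h
    · exfalso
      apply hz1
      rw [mul_inv_eq_one] at h
      exact mul_eq_left.mp h
    · rw [mul_inv_eq_iff_eq_mul] at h
      exact h.symm
  set N := normalizer (R : Set M) with hN
  set C := centralizer (R : Set M) with hC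
  have hCN : C ≤ N := centralizer_le_normalizer _
  -- number of Sylow subgroups
  have hcount : Nat.card (Sylow 3 M) = N.index := R.card_eq_index_normalizer
  have hmod : Nat.card (Sylow 3 M) ≡ 1 [MOD 3] := card_sylow_modEq_one 3 M
  have hRN : (R : Subgroup M) ≤ N := R.le_normalizer
  have hRC : (R : Subgroup M) ≤ C := by
    rw [hC]
    have : IsMulCommutative (R : Subgroup M) := by infer_instance
    exact le_centralizer (R : Subgroup M)
  have h3C : 3 ∣ Nat.card C := by
    rw [← hR]; exact card_dvd_of_le hRC
  have h2C : 2 ∣ Nat.card C := by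
    have hzC : z ∈ C := by
      rw [hC, mem_centralizer_iff]
      intro x _
      exact (hzc x).symm
    have h1 : orderOf (⟨z, hzC⟩ : C) = 2 := by
      rw [orderOf_eq_iff (by norm_num)]
      refine ⟨?_, ?_⟩
      · apply Subtype.ext
        simp [pow_two, hz2]
      · intro m hm hm0
        have : m = 1 := by omega
        subst this
        simpa [Subtype.ext_iff] using hz1
    rw [← h1]
    exact orderOf_dvd_natCard _
  have h6C : 6 ∣ Nat.card C := by omega
  have hcardN : N.index * Nat.card N = 24 := by rw [N.index_mul_card, hM]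
  -- index of C in N at most two
  have hrel : C.relIndex N ∣ 2 := by
    have key := card_dvd_of_injective _ (QuotientGroup.kerLift_injective
      (R : Subgroup M).normalizerMonoidHom)
    rw [normalizerMonoidHom_ker, ← index, ← relIndex] at key
    rw [IsCyclic.card_mulAut, hR, Nat.totient_prime Nat.prime_three] at key
    exact key
  have hrelmul : C.relIndex N * Nat.card C = Nat.card N := by
    rw [relIndex, ← Nat.card_congr (subgroupOfEquivOfLe hCN).toEquiv]
    exact index_mul_card _
  have h12C : ¬ 12 ∣ Nat.card C := by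
    intro h
    have h4 : 2 ^ 2 ∣ Nat.card C := (by norm_num : (2:ℕ) ^ 2 ∣ 12).trans h
    obtain ⟨Q, hQ⟩ := Sylow.exists_subgroup_card_pow_prime 2 h4
    -- an element of order 4 in Q
    obtain ⟨f, hf⟩ : ∃ f : Q, ((f : C) : M) ≠ 1 ∧ ((f : C) : M) ≠ z := by
      by_contra hcon
      push Not at hcon
      have hinj : Function.Injective (fun f : Q => ((f : C) : M)) := by
        intro a b hab
        exact Subtype.ext (Subtype.ext hab)
      have h5 : Set.range (fun f : Q => ((f : C) : M)) ⊆ {1, z} := by
        rintro _ ⟨f, rfl⟩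
        by_cases h6 : ((f : C) : M) = 1
        · simp [h6]
        · simp [hcon f h6]
      have h6 := Set.ncard_le_ncard h5 (Set.toFinite _)
      rw [← Nat.card_coe_set_eq, Nat.card_range_of_injective hinj, hQ] at h6
      have h7 : ({1, z} : Set M).ncard ≤ 2 := Set.ncard_insert_le _ _ |>.trans (by simp)
      omega
    have hf4 : ((f : C) : M) ^ 4 = 1 := by
      have h5 : f ^ 4 = 1 := by
        have : (4 : ℕ) = Nat.card Q := by rw [hQ]; norm_num
        rw [this]; exact pow_card_eq_one'
      have h6 := congrArg (fun x : Q => ((x : C) : M)) h5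
      simpa using h6
    have hford : orderOf ((f : C) : M) = 4 := by
      have h5 : orderOf ((f : C) : M) = 2 ^ (1 + 1) := by
        apply orderOf_eq_prime_pow
        · intro h6
          rcases hu ((f : C) : M) (by rw [← pow_two]; simpa using h6) with h7 | h7
          · exact hf.1 h7
          · exact hf.2 h7
        · simpa using hf4
      simpa using h5
    obtain ⟨r, hr⟩ := IsCyclic.exists_generator (α := R)
    have hrord : orderOf (r : M) = 3 := by
      rw [Subgroup.orderOf_coe]
      exact (orderOf_eq_card_of_forall_mem_zpowers hr).trans hR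
    have hcomm : Commute ((f : C) : M) (r : M) := by
      have h5 : ((f : C) : M) ∈ centralizer (R : Set M) := (f : C).2
      rw [mem_centralizer_iff] at h5
      exact (h5 r r.2).symm
    have h5 := hcomm.orderOf_mul_eq_mul_orderOf_of_coprime (by rw [hford, hrord]; norm_num)
    rw [hford, hrord] at h5
    exact h12 _ h5
  have h24 : Nat.card N ∣ 24 := Dvd.intro_left _ hcardN
  -- conclude by showing the relative index is one
  apply relIndex_eq_one.mp
  rcases (Nat.dvd_prime Nat.prime_two).mp hrel with h | h
  · exact h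
  · exfalso
    rw [h] at hrelmul
    obtain ⟨k, hk⟩ := h6C
    have hk1 : Nat.card N = 12 * k := by rw [← hrelmul, hk]; ring
    have hkpos : 0 < k := by
      rcases Nat.eq_zero_or_pos k with h0 | h0
      · rw [h0] at hk
        have := Nat.card_pos (α := C)
        omega
      · exact h0
    have hk2 : k ∣ 2 := by
      have : 12 * k ∣ 12 * 2 := by rw [← hk1]; exact h24
      exact Nat.dvd_of_mul_dvd_mul_left (by norm_num) this
    rcases (Nat.dvd_prime Nat.prime_two).mp hk2 with rfl | rfl
    · have h5 : N.index = 2 := by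
        rw [hk1] at hcardN; omega
      rw [hcount, h5] at hmod
      exact absurd hmod (by decide)
    · apply h12C
      rw [hk]

end Cfsg.Agent.AH
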