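import Cfsg.Prelude.Def_Local
import Cfsg.Agent.Lib.PSolvable

/-! Existence of `p`-complements in `p`-soluble groups. -/

set_option autoImplicit false
open Cfsg

namespace Cfsg.Agent.H535

universe u

theorem relIndex_comap_mk {G : Type*} [Group G] (N : Subgroup G) [N.Normal] (Q : Subgroup (G ⧸ N)) :
    N.relIndex (Q.comap (QuotientGroup.mk' N)) = Nat.card Q := by
  have h1 : ((⊥ : Subgroup (G ⧸ N)).comap (QuotientGroup.mk' N)).relIndex (Q.comap (QuotientGroup.mk' N)) =
      Nat.card Q := by
    rw [Subgroup.relIndex_comap, Subgroup.map_comap_eq_self_of_surjective (QuotientGroup.mk'_surjective N),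
      Subgroup.relIndex_bot_left]
  rwa [MonoidHom.comap_bot, QuotientGroup.ker_mk'] at h1

/-- **A finite `p`-soluble group has a `p`-complement.** -/
theorem exists_pComplement_aux (p : ℕ) [Fact p.Prime] (n : ℕ) :
    ∀ (G : Type u) [Group G] [Finite G], Nat.card G = n → IsPSolvable p G →
      ∃ Q : Subgroup G, (Nat.card Q).Coprime p ∧ ∃ m, Q.index = p ^ m := by
  induction n using Nat.strong_induction_on with
  | _ n ih =>
  intro G _ _ hn hG
  rcases subsingleton_or_nontrivial G with hs | hs
  · exact ⟨⊤, by simp, 0, by simp⟩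
  have key : ∀ N : Subgroup G, ∀ hN : N.Normal, N ≠ ⊥ → ∃ Q : Subgroup (G ⧸ N),
      (Nat.card Q).Coprime p ∧ ∃ m, Q.index = p ^ m := by
    intro N hN hne
    refine ih (Nat.card (G ⧸ N)) ?_ (G ⧸ N) rfl
      (Lib.PSolvable.IsPSolvable_of_surjective p hG (QuotientGroup.mk' N) (QuotientGroup.mk'_surjective N))
    rw [← hn, ← N.card_mul_index, ← Subgroup.index_eq_card]
    have h1 : 1 < Nat.card N := (Subgroup.one_lt_card_iff_ne_bot N).mpr hne
    have h2 : 0 < N.index := Nat.pos_of_ne_zero Subgroup.index_ne_zero_of_finite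
    nlinarith
  rcases Lib.PSolvable.exists_core_ne_bot p hG with h | h
  · set N := pCore p G with hNdef
    have hN : N.Normal := Lib.HallHigman.pCore_normal p
    obtain ⟨Q, hQ, m, hm⟩ := key N hN h
    set K := Q.comap (QuotientGroup.mk' N) with hK
    have hNK : N ≤ K := by
      intro x hx
      rw [hK, Subgroup.mem_comap]
      have : QuotientGroup.mk' N x = 1 := by
        rw [← MonoidHom.mem_ker, QuotientGroup.ker_mk']
        exact hx
      rw [this]
      exact Q.one_mem
    obtain ⟨a, ha⟩ := IsPGroup.iff_card.mp (Lib.HallHigman.pCore_isPGroup p (G := G))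
    have hcN : Nat.card (N.subgroupOf K) = p ^ a := by
      rw [Nat.card_congr (Subgroup.subgroupOfEquivOfLe hNK).toEquiv]
      exact ha
    have hiN : (N.subgroupOf K).index = Nat.card Q := relIndex_comap_mk N Q
    have hcop : (Nat.card (N.subgroupOf K)).Coprime (N.subgroupOf K).index := by
      rw [hcN, hiN]
      exact (hQ.symm.pow_left a)
    obtain ⟨L, hL⟩ := Subgroup.exists_right_complement'_of_coprime hcop
    refine ⟨L.map K.subtype, ?_, a + m, ?_⟩
    · have h1 : Nat.card (L.map K.subtype) = Nat.card L :=
        (Nat.card_congr (L.equivMapOfInjective K.subtype K.subtype_injective).toEquiv).symm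
      rw [h1, ← hL.symm.index_eq_card, hiN]
      exact hQ
    · have h1 : (L.map K.subtype).index = (L.map K.subtype).relIndex K * K.index :=
        (Subgroup.relIndex_mul_index (Subgroup.map_subtype_le L)).symm
      have h2 : (L.map K.subtype).relIndex K = L.index := by
        show ((L.map K.subtype).subgroupOf K).index = L.index
        congr 1
        exact Subgroup.comap_map_eq_self_of_injective K.subtype_injective L
      rw [h1, h2, hL.index_eq_card, hcN, hK,
        Subgroup.index_comap_of_surjective _ (QuotientGroup.mk'_surjective N), hm, pow_add]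
  · set N := pPrimeCore p G with hNdef
    have hN : N.Normal := Lib.HallHigman.pPrimeCore_normal p
    obtain ⟨Q, hQ, m, hm⟩ := key N hN h
    refine ⟨Q.comap (QuotientGroup.mk' N), ?_, m, ?_⟩
    · have hNK : N ≤ Q.comap (QuotientGroup.mk' N) := by
        intro x hx
        rw [Subgroup.mem_comap]
        have : QuotientGroup.mk' N x = 1 := by
          rw [← MonoidHom.mem_ker, QuotientGroup.ker_mk']
          exact hx
        rw [this]
        exact Q.one_mem
      rw [← Lib.HallHigman.card_mul_relIndex' hNK, relIndex_comap_mk N Q]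
      exact Nat.Coprime.mul_left (Lib.HallHigman.pPrimeCore_coprime p) hQ
    · rw [Subgroup.index_comap_of_surjective _ (QuotientGroup.mk'_surjective N), hm]

/-- **A finite `p`-soluble group has a `p`-complement.** -/
theorem exists_pComplement {G : Type*} [Group G] [Finite G] (p : ℕ) [Fact p.Prime] (hG : IsPSolvable p G) :
    ∃ Q : Subgroup G, (Nat.card Q).Coprime p ∧ ∃ m, Q.index = p ^ m :=
  exists_pComplement_aux p _ G rfl hG

end Cfsg.Agent.H535
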