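import Cfsg.Statements.S4177

/-! Representations spanned by one orbit (for S4176, S4177). -/

set_option autoImplicit false
open Cfsg

namespace Cfsg.Agent.H535

open scoped Classical in
/-- If the subgroup `Q` is transitive on the `H`-orbit of `a`, then the sum of `ρ q a` over `q ∈ Q` is `H`-invariant. -/
theorem sum_subgroup_invariant {k V H : Type*} [Field k] [AddCommGroup V] [Module k V] [Group H] [Finite H]
    (ρ : Representation k H V) (a : V) (Q : Subgroup H) [Fintype Q]
    (hQ : ∀ h : H, ∃ q ∈ Q, ρ h a = ρ q a) (g : H) :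
    ρ g (∑ q : Q, ρ q a) = ∑ q : Q, ρ q a := by
  set Ω : Finset V := Finset.univ.image (fun q : Q => ρ q a) with hΩ
  set m : ℕ := (Finset.univ.filter (fun q : Q => ρ q a = a)).card with hm
  have hfib : ∀ u ∈ Ω, (Finset.univ.filter (fun q : Q => ρ q a = u)).card = m := by
    intro u hu
    rw [hΩ, Finset.mem_image] at hu
    obtain ⟨q₀, -, rfl⟩ := hu
    rw [hm]
    symm
    refine Finset.card_bij (fun q _ => q₀ * q) ?_ ?_ ?_
    · intro q hq
      simp only [Finset.mem_filter, Finset.mem_univ, true_and] at hq ⊢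
      rw [Subgroup.coe_mul, map_mul, Module.End.mul_apply, hq]
    · intro q _ q' _ h
      exact mul_left_cancel h
    · intro q hq
      simp only [Finset.mem_filter, Finset.mem_univ, true_and] at hq
      refine ⟨q₀⁻¹ * q, ?_, by simp⟩
      simp only [Finset.mem_filter, Finset.mem_univ, true_and]
      rw [Subgroup.coe_mul, map_mul, Module.End.mul_apply, hq, ← Module.End.mul_apply, ← map_mul]
      simp
  have hsum : ∑ q : Q, ρ q a = m • ∑ u ∈ Ω, u := by
    rw [← Finset.sum_fiberwise_of_maps_to (g := fun q : Q => ρ q a) (t := Ω)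
      (fun q _ => Finset.mem_image_of_mem _ (Finset.mem_univ q))]
    rw [Finset.smul_sum]
    refine Finset.sum_congr rfl fun u hu => ?_
    rw [← hfib u hu]
    rw [Finset.sum_congr rfl (g := fun _ => u)]
    · simp
    · intro q hq
      simpa using hq
  rw [hsum, map_nsmul, map_sum]
  congr 1
  have hmaps : ∀ (h : H) (u : V), u ∈ Ω → ρ h u ∈ Ω := by
    intro h u hu
    rw [hΩ, Finset.mem_image] at hu
    obtain ⟨q, -, rfl⟩ := hu
    obtain ⟨q', hq', hh⟩ := hQ (h * q)
    rw [hΩ, Finset.mem_image]
    refine ⟨⟨q', hq'⟩, Finset.mem_univ _, ?_⟩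
    rw [← hh, map_mul, Module.End.mul_apply]
  refine Finset.sum_bij (fun u _ => ρ g u) ?_ ?_ ?_ ?_
  · intro u hu
    exact hmaps g u hu
  · intro u _ v _ h
    have := congrArg (ρ g⁻¹) h
    simpa [← Module.End.mul_apply, ← map_mul] using this
  · intro u hu
    refine ⟨ρ g⁻¹ u, hmaps _ _ hu, ?_⟩
    simp [← Module.End.mul_apply, ← map_mul]
  · intro u _
    rfl

/-- Every vector of `span (H a)` is a combination of the `ρ h a`. -/
theorem exists_coeffs {k V H : Type*} [Field k] [AddCommGroup V] [Module k V] [Group H] [Fintype H]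
    (ρ : Representation k H V) (a : V)
    (hspan : Submodule.span k {u : V | ∃ h : H, ρ h a = u} = ⊤) (v : V) :
    ∃ c : H → k, v = ∑ h, c h • ρ h a := by
  have hv : v ∈ Submodule.span k (Set.range fun h : H => ρ h a) := by
    have : (Set.range fun h : H => ρ h a) = {u : V | ∃ h : H, ρ h a = u} := rfl
    rw [this, hspan]
    trivial
  obtain ⟨c, hc⟩ := (Submodule.mem_span_range_iff_exists_fun k).1 hv
  exact ⟨c, hc.symm⟩

/-- If `|H|` is invertible in `k`, the fixed vectors are the multiples of the orbit sum of `a`. -/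
theorem invariant_eq_smul {k V H : Type*} [Field k] [AddCommGroup V] [Module k V] [Group H] [Fintype H]
    (hne : (Fintype.card H : k) ≠ 0) (ρ : Representation k H V) (a : V)
    (hspan : Submodule.span k {u : V | ∃ h : H, ρ h a = u} = ⊤) (v : V) (hv : ∀ h : H, ρ h v = v) :
    ∃ c : k, v = c • ∑ h, ρ h a := by
  obtain ⟨c, hc⟩ := exists_coeffs ρ a hspan v
  refine ⟨(Fintype.card H : k)⁻¹ * ∑ h, c h, ?_⟩
  have h1 : (Fintype.card H : k) • v = ∑ g : H, ρ g v := by
    simp [hv, Nat.cast_smul_eq_nsmul]
  have h2 : ∑ g : H, ρ g v = (∑ h, c h) • ∑ h, ρ h a := by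
    conv_lhs => rw [hc]
    simp only [map_sum, map_smul]
    rw [Finset.sum_comm, Finset.sum_smul]
    refine Finset.sum_congr rfl fun h _ => ?_
    rw [← Finset.smul_sum]
    congr 1
    have : ∀ g : H, ρ g (ρ h a) = ρ (g * h) a := fun g => by rw [map_mul]; rfl
    simp only [this]
    exact Fintype.sum_equiv (Equiv.mulRight h) _ _ (fun g => rfl)
  rw [mul_smul, ← h2, ← h1, smul_smul, inv_mul_cancel₀ hne, one_smul]

open MulAction in
/-- A subgroup whose index is coprime to the size of an orbit is transitive on that orbit. -/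
theorem transitive_of_coprime {H X : Type*} [Group H] [Finite H] [MulAction H X] (B : Subgroup H) (a : X)
    (hcop : (orbit H a).ncard.Coprime B.index) (h : H) : ∃ y ∈ B, h • a = y • a := by
  set A := stabilizer H a with hA
  have hAi : A.index = (orbit H a).ncard := index_stabilizer H a
  have hfin : (orbit H a).Finite := Set.finite_range _
  have h1 : (A ⊓ B).index = A.relIndex B * B.index := by
    rw [← Subgroup.inf_relIndex_right, Subgroup.relIndex_mul_index inf_le_right]
  have h2 : A.index ∣ (A ⊓ B).index := Subgroup.index_dvd_of_le inf_le_left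
  have h3 : A.index ∣ A.relIndex B := by
    rw [h1] at h2
    rw [hAi] at h2 ⊢
    exact hcop.dvd_of_dvd_mul_right h2
  have h4 : A.relIndex B = (orbit B a).ncard := by
    rw [← index_stabilizer B a]
    rfl
  have h5 : A.relIndex B ≠ 0 := Subgroup.index_ne_zero_of_finite
  have h6 : A.index ≤ A.relIndex B := Nat.le_of_dvd (Nat.pos_of_ne_zero h5) h3
  have h7 : orbit B a ⊆ orbit H a := by
    rintro _ ⟨y, rfl⟩
    exact ⟨y, rfl⟩
  have h8 : orbit B a = orbit H a := Set.eq_of_subset_of_ncard_le h7 (by rw [← h4, ← hAi]; exact h6) hfin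
  have h9 : h • a ∈ orbit B a := by rw [h8]; exact ⟨h, rfl⟩
  obtain ⟨y, hy⟩ := h9
  exact ⟨y, y.2, hy.symm⟩

/-- The stabiliser of a vector in a representation. -/
def vstab {k V H : Type*} [Field k] [AddCommGroup V] [Module k V] [Group H]
    (ρ : Representation k H V) (b : V) : Subgroup H where
  carrier := {h | ρ h b = b}
  one_mem' := by simp
  mul_mem' := by
    intro x y hx hy
    simp only [Set.mem_setOf_eq] at hx hy ⊢
    rw [map_mul, Module.End.mul_apply, hy, hx]
  inv_mem' := by
    intro x hx
    simp only [Set.mem_setOf_eq] at hx ⊢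
    conv_lhs => rw [← hx]
    rw [← Module.End.mul_apply, ← map_mul]
    simp

theorem mem_vstab {k V H : Type*} [Field k] [AddCommGroup V] [Module k V] [Group H]
    (ρ : Representation k H V) (b : V) (h : H) : h ∈ vstab ρ b ↔ ρ h b = b := Iff.rfl

theorem index_vstab {k V H : Type*} [Field k] [AddCommGroup V] [Module k V] [Group H]
    (ρ : Representation k H V) (b : V) : (vstab ρ b).index = Nat.card {u : V | ∃ h : H, ρ h b = u} := by
  letI : MulAction H V := MulAction.compHom V ρ
  have h1 : (MulAction.stabilizer H b).index = (MulAction.orbit H b).ncard := MulAction.index_stabilizer H b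
  exact h1.trans (Nat.card_coe_set_eq _).symm

/-- Vector version of `transitive_of_coprime`. -/
theorem vtransitive_of_coprime {k V H : Type*} [Field k] [AddCommGroup V] [Module k V] [Group H] [Finite H]
    (ρ : Representation k H V) (B : Subgroup H) (a : V)
    (hcop : (Nat.card {u : V | ∃ h : H, ρ h a = u}).Coprime B.index) (h : H) : ∃ y ∈ B, ρ h a = ρ y a := by
  letI : MulAction H V := MulAction.compHom V ρ
  have h1 : (MulAction.orbit H a).ncard.Coprime B.index := by
    rw [← Nat.card_coe_set_eq]
    exact hcop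
  exact transitive_of_coprime B a h1 h

/-- The orbit of `ρ g a` is the orbit of `a`. -/
theorem orbit_smul {k V H : Type*} [Field k] [AddCommGroup V] [Module k V] [Group H]
    (ρ : Representation k H V) (a : V) (g : H) :
    {u : V | ∃ h : H, ρ h (ρ g a) = u} = {u : V | ∃ h : H, ρ h a = u} := by
  ext u
  constructor
  · rintro ⟨h, rfl⟩
    exact ⟨h * g, by rw [map_mul]; rfl⟩
  · rintro ⟨h, rfl⟩
    exact ⟨h * g⁻¹, by rw [← Module.End.mul_apply, ← map_mul]; simp⟩

/-- **The coprime-characteristic theorem**, with `|H| ≠ 0` in `k`. -/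
theorem coprime_fixed {k V H : Type*} [Field k] [AddCommGroup V] [Module k V] [Group H] [Finite H]
    (hne : (Nat.card H : k) ≠ 0) (ρ : Representation k H V) (a : V)
    (hspan : Submodule.span k {u : V | ∃ h : H, ρ h a = u} = ⊤) (b : V)
    (hcop : (Nat.card {u : V | ∃ h : H, ρ h a = u}).Coprime (Nat.card {u : V | ∃ h : H, ρ h b = u})) (g : H) :
    ρ g b = b := by
  classical
  letI := Fintype.ofFinite H
  set B := vstab ρ b with hB
  obtain ⟨c, hc⟩ := exists_coeffs ρ a hspan b
  have hBk : (Fintype.card B : k) ≠ 0 := by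
    intro h0
    apply hne
    have h1 : Nat.card B ∣ Nat.card H := Subgroup.card_subgroup_dvd_card B
    obtain ⟨m, hm⟩ := h1
    rw [hm, Nat.cast_mul, Nat.card_eq_fintype_card, h0, zero_mul]
  have h1 : (Fintype.card B : k) • b = ∑ y : B, ρ y b := by
    have : ∀ y : B, ρ y b = b := fun y => y.2
    simp [this, Nat.cast_smul_eq_nsmul]
  have h2 : ∑ y : B, ρ y b = ∑ h, c h • ∑ y : B, ρ y (ρ h a) := by
    conv_lhs => rw [hc]
    simp only [map_sum, map_smul]
    rw [Finset.sum_comm]
    refine Finset.sum_congr rfl fun h _ => ?_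
    rw [← Finset.smul_sum]
  have h3 : ∀ h : H, ρ g (∑ y : B, ρ y (ρ h a)) = ∑ y : B, ρ y (ρ h a) := by
    intro h
    refine sum_subgroup_invariant ρ (ρ h a) B ?_ g
    refine vtransitive_of_coprime ρ B (ρ h a) ?_
    rw [orbit_smul, hB, index_vstab]
    exact hcop
  have h4 : b = (Fintype.card B : k)⁻¹ • ∑ h, c h • ∑ y : B, ρ y (ρ h a) := by
    rw [← h2, ← h1, smul_smul, inv_mul_cancel₀ hBk, one_smul]
  calc ρ g b = ρ g ((Fintype.card B : k)⁻¹ • ∑ h, c h • ∑ y : B, ρ y (ρ h a)) := by rw [← h4]
    _ = (Fintype.card B : k)⁻¹ • ∑ h, c h • ∑ y : B, ρ y (ρ h a) := by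
        simp only [map_smul, map_sum (ρ g)]
        congr 1
        refine Finset.sum_congr rfl fun h _ => ?_
        rw [← map_sum, h3 h]
    _ = b := h4.symm

/-- **The fixed space is at most a line** when `|H| ≠ 0` in `k`. -/
theorem finrank_invariants_le {k V H : Type*} [Field k] [AddCommGroup V] [Module k V] [Group H] [Finite H]
    (hne : (Nat.card H : k) ≠ 0) (ρ : Representation k H V) (a : V)
    (hspan : Submodule.span k {u : V | ∃ h : H, ρ h a = u} = ⊤) :
    Module.finrank k ρ.invariants ≤ 1 := by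
  classical
  letI := Fintype.ofFinite H
  have hne' : (Fintype.card H : k) ≠ 0 := by rwa [Nat.card_eq_fintype_card] at hne
  set s : V := ∑ h, ρ h a with hs
  have hle : ρ.invariants ≤ Submodule.span k {s} := by
    intro v hv
    obtain ⟨c, hc⟩ := invariant_eq_smul hne' ρ a hspan v hv
    rw [hc]
    exact Submodule.smul_mem _ _ (Submodule.mem_span_singleton_self s)
  refine (Submodule.finrank_mono hle).trans ?_
  exact (finrank_span_le_card ({s} : Set V)).trans (by simp)

end Cfsg.Agent.H535
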